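import Cfsg.Agent.H35.EP.CommThree

/-!
# Commuting perfect subgroups of `PSL₃(K)` (helper35, for S3499)

* `psl_comm` : two commuting perfect subgroups of `PSL₃(K)`, `K` finite: one of them is trivial;
* `no_pi` : `T ^ ι`, `T` nonabelian simple, `|ι| ≥ 2`, does not embed in `PSL₃(K)`.
-/

set_option autoImplicit false

namespace Cfsg.Agent.H35.EP

open Module Subgroup
open scoped commutatorElement MatrixGroups

variable {K : Type*} [Field K]

theorem commutator_le_self' {S : Type*} [Group S] (X : Subgroup S) : ⁅X, X⁆ ≤ X := by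
  rw [commutator_le]
  intro a ha b hb
  exact X.mul_mem (X.mul_mem (X.mul_mem ha hb) (X.inv_mem ha)) (X.inv_mem hb)

/-- perfect commuting subgroups of a central quotient lift -/
theorem lift_perfect {S : Type*} [Group S] (X : Subgroup (S ⧸ center S)) (hX : X ≤ ⁅X, X⁆) :
    (⁅X.comap (QuotientGroup.mk' (center S)), X.comap (QuotientGroup.mk' (center S))⁆ : Subgroup S).map
        (QuotientGroup.mk' (center S)) = X ∧
      ⁅X.comap (QuotientGroup.mk' (center S)), X.comap (QuotientGroup.mk' (center S))⁆ ≤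
        ⁅(⁅X.comap (QuotientGroup.mk' (center S)), X.comap (QuotientGroup.mk' (center S))⁆ : Subgroup S),
          (⁅X.comap (QuotientGroup.mk' (center S)), X.comap (QuotientGroup.mk' (center S))⁆ : Subgroup S)⁆ := by
  set π := QuotientGroup.mk' (center S) with hπ
  have hsurj : Function.Surjective π := QuotientGroup.mk'_surjective _
  set H := X.comap π with hH
  have h1 : (⁅H, H⁆ : Subgroup S).map π = X := by
    rw [map_commutator, hH, Subgroup.map_comap_eq_self_of_surjective hsurj]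
    exact le_antisymm (commutator_le_self' X) hX
  refine ⟨h1, ?_⟩
  have h2 : ∀ a ∈ H, ∃ d ∈ (⁅H, H⁆ : Subgroup S), ∃ z ∈ center S, a = d * z := by
    intro a ha
    have h3 : π a ∈ (⁅H, H⁆ : Subgroup S).map π := by
      rw [h1]
      exact ha
    obtain ⟨d, hd, e⟩ := h3
    refine ⟨d, hd, d⁻¹ * a, ?_, by group⟩
    have h4 : (QuotientGroup.mk d : S ⧸ center S) = QuotientGroup.mk a := e
    exact QuotientGroup.eq.1 h4
  rw [commutator_le]
  intro a ha b hb
  obtain ⟨d, hd, z, hz, rfl⟩ := h2 a ha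
  obtain ⟨d', hd', z', hz', rfl⟩ := h2 b hb
  have e : ⁅d * z, d' * z'⁆ = ⁅d, d'⁆ := by
    rw [mem_center_iff] at hz hz'
    rw [commutatorElement_def, commutatorElement_def]
    have e1 : z * (d' * z') = d' * z' * z := (hz (d' * z')).symm
    have e2 : z' * d⁻¹ = d⁻¹ * z' := (hz' d⁻¹).symm
    calc d * z * (d' * z') * (d * z)⁻¹ * (d' * z')⁻¹ = d * (z * (d' * z')) * z⁻¹ * d⁻¹ * z'⁻¹ * d'⁻¹ := by group
      _ = d * d' * (z' * d⁻¹) * z'⁻¹ * d'⁻¹ := by rw [e1]; group
      _ = d * d' * d⁻¹ * d'⁻¹ := by rw [e2]; group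
  rw [e]
  exact commutator_mem_commutator hd hd'

theorem lift_comm {S : Type*} [Group S] {X Y : Subgroup (S ⧸ center S)} (hc : ∀ x ∈ X, ∀ y ∈ Y, x * y = y * x)
    {d y : S} (hd : d ∈ (⁅X.comap (QuotientGroup.mk' (center S)), X.comap (QuotientGroup.mk' (center S))⁆ : Subgroup S))
    (hy : y ∈ Y.comap (QuotientGroup.mk' (center S))) : d * y = y * d := by
  set π := QuotientGroup.mk' (center S) with hπ
  have h1 : (⁅X.comap π, X.comap π⁆ : Subgroup S) ≤ centralizer ({y} : Set S) := by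
    rw [commutator_le]
    intro a ha b hb
    have key : ∀ a ∈ X.comap π, ∃ z ∈ center S, y * a * y⁻¹ = a * z := by
      intro a ha
      refine ⟨a⁻¹ * (y * a * y⁻¹), ?_, by group⟩
      have h2 : π (y * a * y⁻¹) = π a := by
        rw [map_mul, map_mul, map_inv, ← hc _ ha _ hy, mul_inv_cancel_right]
      have h4 : (QuotientGroup.mk a : S ⧸ center S) = QuotientGroup.mk (y * a * y⁻¹) := h2.symm
      exact QuotientGroup.eq.1 h4
    obtain ⟨z, hz, e1⟩ := key a ha
    obtain ⟨z', hz', e2⟩ := key b hb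
    rw [mem_centralizer_singleton_iff]
    have e3 : y * ⁅a, b⁆ * y⁻¹ = ⁅a, b⁆ := by
      have e4 : y * ⁅a, b⁆ * y⁻¹ = ⁅y * a * y⁻¹, y * b * y⁻¹⁆ := by
        rw [commutatorElement_def, commutatorElement_def]
        group
      rw [e4, e1, e2]
      rw [mem_center_iff] at hz hz'
      rw [commutatorElement_def, commutatorElement_def]
      have e1 : z * (b * z') = b * z' * z := (hz (b * z')).symm
      have e2 : z' * a⁻¹ = a⁻¹ * z' := (hz' a⁻¹).symm
      calc a * z * (b * z') * (a * z)⁻¹ * (b * z')⁻¹ = a * (z * (b * z')) * z⁻¹ * a⁻¹ * z'⁻¹ * b⁻¹ := by group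
        _ = a * b * (z' * a⁻¹) * z'⁻¹ * b⁻¹ := by rw [e1]; group
        _ = a * b * a⁻¹ * b⁻¹ := by rw [e2]; group
    rw [mul_inv_eq_iff_eq_mul] at e3
    exact e3.symm
  exact mem_centralizer_singleton_iff.1 (h1 hd)

/-- **Two commuting perfect subgroups of `PSL₃(K)`: one is trivial.** -/
theorem psl_comm [Finite K] {X Y : Subgroup (Matrix.ProjectiveSpecialLinearGroup (Fin 3) K)} (hX : X ≤ ⁅X, X⁆)
    (hY : Y ≤ ⁅Y, Y⁆) (hc : ∀ x ∈ X, ∀ y ∈ Y, x * y = y * x) (hX1 : X ≠ ⊥) : Y = ⊥ := by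
  classical
  set π := QuotientGroup.mk' (center (Matrix.SpecialLinearGroup (Fin 3) K)) with hπ
  obtain ⟨hD1, hD2⟩ := lift_perfect X hX
  obtain ⟨hE1, hE2⟩ := lift_perfect Y hY
  rw [← hπ] at hD1 hD2 hE1 hE2
  set D : Subgroup (Matrix.SpecialLinearGroup (Fin 3) K) := ⁅X.comap π, X.comap π⁆ with hD
  set E : Subgroup (Matrix.SpecialLinearGroup (Fin 3) K) := ⁅Y.comap π, Y.comap π⁆ with hE
  let φ : Matrix.SpecialLinearGroup (Fin 3) K →* ((Fin 3 → K) ≃ₗ[K] (Fin 3 → K)) := Matrix.SpecialLinearGroup.toLin'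
  have hφ : Function.Injective φ := Matrix.SpecialLinearGroup.toLin'_injective
  have h1 := comm_three (K := K) (V := Fin 3 → K) (by rw [Module.finrank_fin_fun]) (D := D.map φ) (E := E.map φ) (by
    rw [← map_commutator]
    exact map_mono hD2) (by
    rw [← map_commutator]
    exact map_mono hE2) (by
    rintro _ ⟨d, hd, rfl⟩ _ ⟨e, he, rfl⟩
    have he' : e ∈ Y.comap π := commutator_le_self' _ he
    rw [← map_mul, ← map_mul, lift_comm hc hd he']) (by
    rw [Ne, map_eq_bot_iff_of_injective _ hφ]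
    intro e
    rw [e, Subgroup.map_bot] at hD1
    exact hX1 hD1.symm)
  rw [map_eq_bot_iff_of_injective _ hφ] at h1
  rw [← hE1, h1, Subgroup.map_bot]

/-- `T × T ≤ T ^ ι` does not embed -/
theorem no_pi [Finite K] {ι T : Type*} [DecidableEq ι] [Group T] (hT : ∀ a : T, a ∈ (⁅(⊤ : Subgroup T), ⊤⁆ : Subgroup T))
    (hT1 : Nontrivial T) {i j : ι} (hij : i ≠ j) (f : (ι → T) →* Matrix.ProjectiveSpecialLinearGroup (Fin 3) K)
    (hf : Function.Injective f) : False := by
  have key : ∀ i : ι, ((⊤ : Subgroup T).map (f.comp (MonoidHom.mulSingle (fun _ : ι => T) i))) ≤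
      ⁅((⊤ : Subgroup T).map (f.comp (MonoidHom.mulSingle (fun _ : ι => T) i))),
        ((⊤ : Subgroup T).map (f.comp (MonoidHom.mulSingle (fun _ : ι => T) i)))⁆ := by
    intro i
    rw [← map_commutator]
    exact map_mono fun a _ => hT a
  have hinj : ∀ i : ι, Function.Injective (f.comp (MonoidHom.mulSingle (fun _ : ι => T) i)) := fun i =>
    hf.comp (Pi.mulSingle_injective (M := fun _ : ι => T) i)
  have h1 := psl_comm (key i) (key j) (by
    rintro _ ⟨a, _, rfl⟩ _ ⟨b, _, rfl⟩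
    show f _ * f _ = f _ * f _
    rw [← map_mul, ← map_mul]
    congr 1
    exact Pi.mulSingle_commute (f := fun _ : ι => T) hij a b) (by
    rw [Ne, map_eq_bot_iff_of_injective _ (hinj i)]
    exact top_ne_bot)
  rw [map_eq_bot_iff_of_injective _ (hinj j)] at h1
  exact top_ne_bot h1

end Cfsg.Agent.H35.EP
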