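import Mathlib
import Cfsg.Agent.Schreier.IrrMod

/-!
# Commuting perfect groups in dimension three (helper35, for S3499)

`comm_three` : two commuting perfect groups of automorphisms of a three-dimensional vector space over a finite field:
one of them is trivial.
-/

set_option autoImplicit false

namespace Cfsg.Agent.H35.EP

open Module Subgroup
open scoped commutatorElement

variable {K V : Type*} [Field K] [AddCommGroup V] [Module K V]

/-- Schur + Wedderburn, linear form -/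
theorem comm_of_irred [Finite V] (X : Set (V →ₗ[K] V))
    (hirr : ∀ W : Submodule K V, (∀ x ∈ X, ∀ w ∈ W, x w ∈ W) → W = ⊥ ∨ W = ⊤) {f g : V →ₗ[K] V}
    (hf : ∀ x ∈ X, ∀ v, x (f v) = f (x v)) (hg : ∀ x ∈ X, ∀ v, x (g v) = g (x v)) (v : V) : f (g v) = g (f v) := by
  let Y : Set (AddMonoid.End V) := {y | (∃ x ∈ X, ∀ v, y v = x v) ∨ ∃ c : K, ∀ v, y v = c • v}
  have h1 := Cfsg.Agent.Schreier.IrrMod.comm_of_irreducible Y ?_ (f.toAddMonoidHom : AddMonoid.End V)
    (g.toAddMonoidHom : AddMonoid.End V) ?_ ?_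
  · exact DFunLike.congr_fun h1 v
  · intro N hN
    let W : Submodule K V := { N with
      smul_mem' := by
        intro c n hn
        have h2 := hN ((DistribSMul.toAddMonoidHom V c : V →+ V) : AddMonoid.End V) (Or.inr ⟨c, fun v => rfl⟩) n hn
        exact h2 }
    have hW : ∀ n, n ∈ W ↔ n ∈ N := fun n => Iff.rfl
    rcases hirr W (by
      intro x hx w hw
      have h2 := hN (x.toAddMonoidHom : AddMonoid.End V) (Or.inl ⟨x, hx, fun v => rfl⟩) w hw
      exact h2) with h | h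
    · left
      rw [AddSubgroup.eq_bot_iff_forall]
      intro n hn
      have : n ∈ W := hn
      rw [h, Submodule.mem_bot] at this
      exact this
    · right
      rw [AddSubgroup.eq_top_iff']
      intro n
      have : n ∈ W := by rw [h]; trivial
      exact this
  · rintro y (⟨x, hx, hy⟩ | ⟨c, hy⟩)
    · ext v
      show y (f v) = f (y v)
      rw [hy, hy, hf x hx]
    · ext v
      show y (f v) = f (y v)
      rw [hy, hy, map_smul]
  · rintro y (⟨x, hx, hy⟩ | ⟨c, hy⟩)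
    · ext v
      show y (g v) = g (y v)
      rw [hy, hy, hg x hx]
    · ext v
      show y (g v) = g (y v)
      rw [hy, hy, map_smul]

/-- the automorphisms trivial on `W₁` and on `W₂` modulo `W₁` -/
def HH (W₁ W₂ : Submodule K V) : Subgroup (V ≃ₗ[K] V) where
  carrier := {g | (∀ w ∈ W₁, g w = w) ∧ ∀ w ∈ W₂, g w - w ∈ W₁}
  one_mem' := ⟨fun w _ => rfl, fun w _ => by
    show w - w ∈ W₁
    rw [sub_self]
    exact W₁.zero_mem⟩
  mul_mem' := by
    rintro g h ⟨hg1, hg2⟩ ⟨hh1, hh2⟩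
    refine ⟨fun w hw => ?_, fun w hw => ?_⟩
    · show g (h w) = w
      rw [hh1 w hw, hg1 w hw]
    · show g (h w) - w ∈ W₁
      have e : g (h w) - w = (h w - w) + (g w - w) := by
        have e1 := hg1 _ (hh2 w hw)
        rw [map_sub] at e1
        rw [← e1]
        abel
      rw [e]
      exact W₁.add_mem (hh2 w hw) (hg2 w hw)
  inv_mem' := by
    rintro g ⟨hg1, hg2⟩
    have h1 : ∀ w ∈ W₁, g⁻¹ w = w := by
      intro w hw
      show g.symm w = w
      rw [LinearEquiv.symm_apply_eq, hg1 w hw]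
    refine ⟨h1, fun w hw => ?_⟩
    have e : g⁻¹ w - w = - (g w - w) := by
      have e1 := h1 _ (hg2 w hw)
      rw [map_sub] at e1
      have e2 : g⁻¹ (g w) = w := g.symm_apply_apply w
      rw [e2] at e1
      rw [← e1]
      abel
    rw [e]
    exact W₁.neg_mem (hg2 w hw)

theorem mem_HH {W₁ W₂ : Submodule K V} {g : V ≃ₗ[K] V} :
    g ∈ HH W₁ W₂ ↔ (∀ w ∈ W₁, g w = w) ∧ ∀ w ∈ W₂, g w - w ∈ W₁ := Iff.rfl

/-- the key step -/
theorem comm_mem_HH {G : Subgroup (V ≃ₗ[K] V)} {W₁ W₂ : Submodule K V} (h1 : ∀ g ∈ G, ∀ w ∈ W₁, g w = w)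
    (h2 : ∀ g ∈ G, ∀ w ∈ W₂, g w ∈ W₂) (hc : ∀ a ∈ G, ∀ b ∈ G, ∀ w ∈ W₂, a (b w) - b (a w) ∈ W₁) : ⁅G, G⁆ ≤ HH W₁ W₂ := by
  rw [commutator_le]
  intro a ha b hb
  refine ⟨h1 _ ?_, ?_⟩
  · exact G.mul_mem (G.mul_mem (G.mul_mem ha hb) (G.inv_mem ha)) (G.inv_mem hb)
  · intro w hw
    have h3 : (a⁻¹ * b⁻¹ : V ≃ₗ[K] V) w ∈ W₂ := h2 _ (G.mul_mem (G.inv_mem ha) (G.inv_mem hb)) w hw
    have h4 := hc a ha b hb _ h3
    have e1 : b (a ((a⁻¹ * b⁻¹ : V ≃ₗ[K] V) w)) = w := by
      show b (a (a.symm (b.symm w))) = w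
      rw [LinearEquiv.apply_symm_apply, LinearEquiv.apply_symm_apply]
    rw [e1] at h4
    exact h4

/-- perfect groups: a two-step trivial action is trivial -/
theorem fix_two {G : Subgroup (V ≃ₗ[K] V)} (hG : G ≤ ⁅G, G⁆) {W₁ W₂ : Submodule K V} (hW : W₁ ≤ W₂)
    (h : G ≤ HH W₁ W₂) : ∀ g ∈ G, ∀ w ∈ W₂, g w = w := by
  have h0 : ∀ g ∈ G, ∀ w ∈ W₂, g w ∈ W₂ := by
    intro g hg w hw
    have := W₂.add_mem (hW ((h hg).2 w hw)) hw
    rwa [sub_add_cancel] at this
  have h1 : ⁅G, G⁆ ≤ HH ⊥ W₂ := by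
    refine comm_mem_HH (fun g _ w hw => ?_) h0 ?_
    · rw [Submodule.mem_bot] at hw
      rw [hw, map_zero]
    · intro a ha b hb w hw
      rw [Submodule.mem_bot, sub_eq_zero]
      have ea := (h ha).1 _ ((h hb).2 w hw)
      have eb := (h hb).1 _ ((h ha).2 w hw)
      rw [map_sub] at ea eb
      have e1 : a (b w) = b w - w + a w := by rw [← ea]; abel
      have e2 : b (a w) = a w - w + b w := by rw [← eb]; abel
      rw [e1, e2]
      abel
  intro g hg w hw
  have h2 := (h1 (hG hg)).2 w hw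
  rw [Submodule.mem_bot, sub_eq_zero] at h2
  exact h2

/-- invertible maps commute modulo a hyperplane -/
theorem hyper {W₁ W₂ : Submodule K V} [FiniteDimensional K V] (hW : W₁ ≤ W₂) (hd : finrank K W₂ = finrank K W₁ + 1)
    {a b : V →ₗ[K] V} (ha1 : ∀ w ∈ W₁, a w ∈ W₁) (ha2 : ∀ w ∈ W₂, a w ∈ W₂) (hb1 : ∀ w ∈ W₁, b w ∈ W₁)
    (hb2 : ∀ w ∈ W₂, b w ∈ W₂) (w : V) (hw : w ∈ W₂) : a (b w) - b (a w) ∈ W₁ := by
  have hne : W₁ ≠ W₂ := by
    intro e
    rw [e] at hd
    omega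
  obtain ⟨w₀, hw₀, hw₀'⟩ := SetLike.exists_of_lt (lt_of_le_of_ne hW hne)
  have hle : W₁ ⊔ Submodule.span K {w₀} ≤ W₂ := sup_le hW ((Submodule.span_singleton_le_iff_mem _ _).2 hw₀)
  have hlt : W₁ < W₁ ⊔ Submodule.span K {w₀} := by
    refine lt_of_le_of_ne le_sup_left fun e => hw₀' ?_
    rw [e]
    exact le_sup_right (a := W₁) (Submodule.mem_span_singleton_self w₀)
  have hfin := Submodule.finrank_lt_finrank_of_lt hlt
  have heq : W₁ ⊔ Submodule.span K {w₀} = W₂ :=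
    Submodule.eq_of_le_of_finrank_le hle (by omega)
  have key : ∀ c : V →ₗ[K] V, (∀ w ∈ W₁, c w ∈ W₁) → (∀ w ∈ W₂, c w ∈ W₂) → ∃ α : K, ∀ w ∈ W₂, c w - α • w ∈ W₁ := by
    intro c hc1 hc2
    have h1 := hc2 w₀ hw₀
    rw [← heq, Submodule.mem_sup] at h1
    obtain ⟨y, hy, z, hz, e⟩ := h1
    obtain ⟨α, rfl⟩ := Submodule.mem_span_singleton.1 hz
    refine ⟨α, fun w hw => ?_⟩
    rw [← heq, Submodule.mem_sup] at hw
    obtain ⟨u, hu, z, hz, rfl⟩ := hw
    obtain ⟨β, rfl⟩ := Submodule.mem_span_singleton.1 hz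
    have e2 : c (u + β • w₀) - α • (u + β • w₀) = (c u - α • u) + β • y := by
      rw [map_add, map_smul, ← e]
      module
    rw [e2]
    exact W₁.add_mem (W₁.sub_mem (hc1 u hu) (W₁.smul_mem _ hu)) (W₁.smul_mem _ hy)
  obtain ⟨α, hα⟩ := key a ha1 ha2
  obtain ⟨β, hβ⟩ := key b hb1 hb2
  have h1 := hα _ (hb2 w hw)
  have h2 := hβ _ (ha2 w hw)
  have h3 := W₁.smul_mem α (hβ w hw)
  have h4 := W₁.smul_mem β (hα w hw)
  have e : a (b w) - b (a w) = (a (b w) - α • b w) - (b (a w) - β • a w) + (α • (b w - β • w)) - (β • (a w - α • w)) := by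
    module
  rw [e]
  exact W₁.sub_mem (W₁.add_mem (W₁.sub_mem h1 h2) h3) h4

/-- perfect groups act trivially on one-dimensional sections above the fixed points -/
theorem fix_succ [FiniteDimensional K V] {G : Subgroup (V ≃ₗ[K] V)} (hG : G ≤ ⁅G, G⁆) {W₁ W₂ : Submodule K V}
    (hW : W₁ ≤ W₂) (hd : finrank K W₂ = finrank K W₁ + 1) (h1 : ∀ g ∈ G, ∀ w ∈ W₁, g w = w)
    (h2 : ∀ g ∈ G, ∀ w ∈ W₂, g w ∈ W₂) : ∀ g ∈ G, ∀ w ∈ W₂, g w = w := by
  refine fix_two hG hW (hG.trans (comm_mem_HH h1 h2 fun a ha b hb w hw => ?_))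
  exact hyper hW hd (a := a.toLinearMap) (b := b.toLinearMap) (fun w hw => by
      show a w ∈ W₁
      rw [h1 a ha w hw]
      exact hw) (h2 a ha) (fun w hw => by
      show b w ∈ W₁
      rw [h1 b hb w hw]
      exact hw) (h2 b hb) w hw

/-- the fixed points -/
def Fx (G : Subgroup (V ≃ₗ[K] V)) : Submodule K V where
  carrier := {v | ∀ g ∈ G, g v = v}
  zero_mem' := fun g _ => map_zero g
  add_mem' := fun {a b} ha hb g hg => by rw [map_add, ha g hg, hb g hg]
  smul_mem' := fun c v hv g hg => by rw [map_smul, hv g hg]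

theorem mem_Fx {G : Subgroup (V ≃ₗ[K] V)} {v : V} : v ∈ Fx G ↔ ∀ g ∈ G, g v = v := Iff.rfl

theorem eq_bot_of_Fx {G : Subgroup (V ≃ₗ[K] V)} (h : ∀ v, v ∈ Fx G) : G = ⊥ := by
  rw [Subgroup.eq_bot_iff_forall]
  intro g hg
  ext v
  exact h v g hg

/-- step 1: the fixed points have dimension one -/
theorem finrank_Fx [FiniteDimensional K V] (hV : finrank K V = 3) {D : Subgroup (V ≃ₗ[K] V)}
    (hD : D ≤ ⁅D, D⁆) (hD1 : D ≠ ⊥) (hF : Fx D ≠ ⊥) : finrank K (Fx D) = 1 := by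
  have h0 : finrank K (Fx D) ≠ 0 := by
    rw [Ne, Submodule.finrank_eq_zero]
    exact hF
  have h3 : finrank K (Fx D) ≤ 3 := by
    rw [← hV]
    exact Submodule.finrank_le _
  have h3' : finrank K (Fx D) ≠ 3 := by
    intro e
    apply hD1
    apply eq_bot_of_Fx
    have : Fx D = ⊤ := Submodule.eq_top_of_finrank_eq (by rw [e, hV])
    intro v
    rw [this]
    trivial
  have h2' : finrank K (Fx D) ≠ 2 := by
    intro e
    apply hD1
    apply eq_bot_of_Fx
    intro v g hg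
    exact fix_succ hD (W₁ := Fx D) (W₂ := ⊤) le_top (by rw [finrank_top, e, hV]) (fun g hg w hw => hw g hg)
      (fun _ _ _ _ => trivial) g hg v trivial
  omega

/-- commuting groups preserve the fixed points -/
theorem Fx_le [FiniteDimensional K V] {D E : Subgroup (V ≃ₗ[K] V)} (hE : E ≤ ⁅E, E⁆)
    (hc : ∀ d ∈ D, ∀ e ∈ E, d * e = e * d) (h1 : finrank K (Fx D) = 1) : Fx D ≤ Fx E := by
  have h := fix_succ hE (W₁ := ⊥) (W₂ := Fx D) bot_le (by rw [h1, finrank_bot]) (fun g _ w hw => by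
    rw [Submodule.mem_bot] at hw
    rw [hw, map_zero]) (fun e he w hw d hd => by
      have h2 := LinearEquiv.congr_fun (hc d hd e he) w
      have h3 : d (e w) = e (d w) := h2
      rw [h3, hw d hd])
  intro w hw e he
  exact h e he w hw

/-- **no fixed vectors** -/
theorem Fx_eq_bot [Finite V] [FiniteDimensional K V] (hV : finrank K V = 3) {D E : Subgroup (V ≃ₗ[K] V)}
    (hD : D ≤ ⁅D, D⁆) (hE : E ≤ ⁅E, E⁆) (hc : ∀ d ∈ D, ∀ e ∈ E, d * e = e * d) (hD1 : D ≠ ⊥) (hE1 : E ≠ ⊥) :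
    Fx D = ⊥ := by
  by_contra hF
  have h1 := finrank_Fx hV hD hD1 hF
  have h2 : Fx D ≤ Fx E := Fx_le hE hc h1
  have hFE : Fx E ≠ ⊥ := by
    intro e
    rw [e, le_bot_iff] at h2
    exact hF h2
  have h3 := finrank_Fx hV hE hE1 hFE
  set ℓ := Fx D with hℓ
  have hDℓ : ∀ d ∈ D, ∀ w ∈ ℓ, d w = w := fun d hd w hw => hw d hd
  have hEℓ : ∀ e ∈ E, ∀ w ∈ ℓ, e w = w := fun e he w hw => h2 hw e he
  -- irreducible on the quotient
  have hirr : ∀ W : Submodule K V, ℓ ≤ W → (∀ d ∈ D, ∀ w ∈ W, d w ∈ W) → W = ℓ ∨ W = ⊤ := by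
    intro W hW hDW
    have h4 : finrank K W ≤ 3 := by
      rw [← hV]
      exact Submodule.finrank_le _
    have h5 : finrank K ℓ ≤ finrank K W := Submodule.finrank_mono hW
    have h6 : finrank K W ≠ 2 := by
      intro e
      have h7 := fix_succ hD hW (by rw [h1, e]) hDℓ hDW
      have h8 : W ≤ ℓ := fun w hw d hd => h7 d hd w hw
      have h9 := Submodule.finrank_mono h8
      omega
    rcases (by omega : finrank K W = 1 ∨ finrank K W = 3) with e | e
    · left
      exact (Submodule.eq_of_le_of_finrank_eq hW (by rw [h1, e])).symm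
    · right
      exact Submodule.eq_top_of_finrank_eq (by rw [e, hV])
  have hfinq : Finite (V ⧸ ℓ) := Finite.of_surjective ℓ.mkQ ℓ.mkQ_surjective
  have hmap : ∀ g : V ≃ₗ[K] V, (∀ w ∈ ℓ, g w = w) → ℓ ≤ ℓ.comap g.toLinearMap := by
    intro g hg w hw
    show g w ∈ ℓ
    rw [hg w hw]
    exact hw
  let X : Set ((V ⧸ ℓ) →ₗ[K] (V ⧸ ℓ)) := {x | ∃ d ∈ D, ∀ v, x (ℓ.mkQ v) = ℓ.mkQ (d v)}
  have hcomm : ∀ a ∈ E, ∀ b ∈ E, ∀ w : V, a (b w) - b (a w) ∈ ℓ := by
    intro a ha b hb w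
    have h4 := comm_of_irred X ?_ (f := ℓ.mapQ ℓ a.toLinearMap (hmap a (hEℓ a ha)))
      (g := ℓ.mapQ ℓ b.toLinearMap (hmap b (hEℓ b hb))) ?_ ?_ (ℓ.mkQ w)
    · have h5 : ℓ.mkQ (a (b w)) = ℓ.mkQ (b (a w)) := h4
      rw [← sub_eq_zero, ← map_sub, Submodule.mkQ_apply, Submodule.Quotient.mk_eq_zero] at h5
      exact h5
    · intro W hW
      have h5 := hirr (W.comap ℓ.mkQ) (fun w hw => by
        rw [Submodule.mem_comap, Submodule.mkQ_apply, (Submodule.Quotient.mk_eq_zero ℓ).2 hw]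
        exact W.zero_mem) (fun d hd w hw => by
          rw [Submodule.mem_comap] at hw ⊢
          exact hW (ℓ.mapQ ℓ d.toLinearMap (hmap d (hDℓ d hd))) ⟨d, hd, fun v => rfl⟩ _ hw)
      rcases h5 with h5 | h5
      · left
        rw [Submodule.eq_bot_iff]
        intro y hy
        obtain ⟨v, rfl⟩ := ℓ.mkQ_surjective y
        have h6 : v ∈ W.comap ℓ.mkQ := hy
        rw [h5] at h6
        rw [Submodule.mkQ_apply, (Submodule.Quotient.mk_eq_zero ℓ).2 h6]
      · right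
        rw [Submodule.eq_top_iff']
        intro y
        obtain ⟨v, rfl⟩ := ℓ.mkQ_surjective y
        have h6 : v ∈ W.comap ℓ.mkQ := by rw [h5]; trivial
        exact h6
    · rintro x ⟨d, hd, hx⟩ y
      obtain ⟨v, rfl⟩ := ℓ.mkQ_surjective y
      have h5 : d (a v) = a (d v) := LinearEquiv.congr_fun (hc d hd a ha) v
      show x (ℓ.mkQ (a v)) = ℓ.mapQ ℓ a.toLinearMap _ (x (ℓ.mkQ v))
      rw [hx, hx, h5]
      rfl
    · rintro x ⟨d, hd, hx⟩ y
      obtain ⟨v, rfl⟩ := ℓ.mkQ_surjective y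
      have h5 : d (b v) = b (d v) := LinearEquiv.congr_fun (hc d hd b hb) v
      show x (ℓ.mkQ (b v)) = ℓ.mapQ ℓ b.toLinearMap _ (x (ℓ.mkQ v))
      rw [hx, hx, h5]
      rfl
  apply hE1
  apply eq_bot_of_Fx
  intro v e he
  exact fix_two hE (W₁ := ℓ) (W₂ := ⊤) le_top (hE.trans (comm_mem_HH hEℓ (fun _ _ _ _ => trivial)
    fun a ha b hb w _ => hcomm a ha b hb w)) e he v trivial

/-- the contragredient -/
noncomputable def contra : (V ≃ₗ[K] V) →* (Dual K V ≃ₗ[K] Dual K V) where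
  toFun g := g.symm.dualMap
  map_one' := by
    ext f v
    rfl
  map_mul' := by
    intro g h
    ext f v
    rfl

theorem contra_apply (g : V ≃ₗ[K] V) (f : Dual K V) (v : V) : contra g f v = f (g.symm v) := rfl

theorem contra_injective [FiniteDimensional K V] : Function.Injective (contra : (V ≃ₗ[K] V) →* _) := by
  rw [injective_iff_map_eq_one]
  intro g hg
  ext v
  show g v = v
  have h1 : ∀ f : Dual K V, f (g.symm v) = f v := by
    intro f
    have := LinearMap.congr_fun (LinearEquiv.congr_fun hg f) v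
    exact this
  have h2 : g.symm v = v := by
    rw [← sub_eq_zero, ← Module.forall_dual_apply_eq_zero_iff K]
    intro f
    rw [map_sub, h1, sub_self]
  rw [LinearEquiv.symm_apply_eq] at h2
  exact h2.symm

/-- **Two commuting perfect groups in dimension three.** -/
theorem comm_three [Finite K] [FiniteDimensional K V] (hV : finrank K V = 3) {D E : Subgroup (V ≃ₗ[K] V)}
    (hD : D ≤ ⁅D, D⁆) (hE : E ≤ ⁅E, E⁆) (hc : ∀ d ∈ D, ∀ e ∈ E, d * e = e * d) (hD1 : D ≠ ⊥) : E = ⊥ := by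
  by_contra hE1
  have hfV : Finite V := Module.finite_of_finite K
  have hfD : Finite (Dual K V) := Module.finite_of_finite K
  have h1 := Fx_eq_bot hV hD hE hc hD1 hE1
  have h2 := Fx_eq_bot (V := Dual K V) (by rw [Subspace.dual_finrank_eq, hV]) (D := D.map contra) (E := E.map contra) (by
    rw [← map_commutator]
    exact map_mono hD) (by
    rw [← map_commutator]
    exact map_mono hE) (by
    rintro _ ⟨d, hd, rfl⟩ _ ⟨e, he, rfl⟩
    rw [← map_mul, ← map_mul, hc d hd e he]) (by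
    rwa [Ne, map_eq_bot_iff_of_injective _ contra_injective]) (by
    rwa [Ne, map_eq_bot_iff_of_injective _ contra_injective])
  have hirr : ∀ W : Submodule K V, (∀ d ∈ D, ∀ w ∈ W, d w ∈ W) → W = ⊥ ∨ W = ⊤ := by
    intro W hW
    have h4 : finrank K W ≤ 3 := by
      rw [← hV]
      exact Submodule.finrank_le _
    rcases (by omega : finrank K W = 0 ∨ finrank K W = 1 ∨ finrank K W = 2 ∨ finrank K W = 3) with e | e | e | e
    · left
      exact Submodule.finrank_eq_zero.1 e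
    · left
      rw [eq_bot_iff, ← h1]
      have h5 := fix_succ hD (W₁ := ⊥) (W₂ := W) bot_le (by rw [e, finrank_bot]) (fun g _ w hw => by
        rw [Submodule.mem_bot] at hw
        rw [hw, map_zero]) hW
      intro w hw d hd
      exact h5 d hd w hw
    · exfalso
      have h5 : finrank K W.dualAnnihilator = 1 := by
        have := Subspace.finrank_add_finrank_dualAnnihilator_eq W
        omega
      have h6 := fix_succ (V := Dual K V) (G := D.map contra) (by
        rw [← map_commutator]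
        exact map_mono hD) (W₁ := ⊥) (W₂ := W.dualAnnihilator) bot_le (by rw [h5, finrank_bot]) (fun g _ w hw => by
        rw [Submodule.mem_bot] at hw
        rw [hw, map_zero]) (by
        rintro _ ⟨d, hd, rfl⟩ f hf
        rw [Submodule.mem_dualAnnihilator] at hf ⊢
        intro w hw
        rw [contra_apply]
        exact hf _ (hW d⁻¹ (D.inv_mem hd) w hw))
      have h7 : W.dualAnnihilator ≤ Fx (D.map contra) := fun w hw d hd => h6 d hd w hw
      rw [h2, le_bot_iff] at h7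
      rw [h7, finrank_bot] at h5
      omega
    · right
      exact Submodule.eq_top_of_finrank_eq (by rw [e, hV])
  apply hE1
  rw [eq_bot_iff]
  refine hE.trans ?_
  rw [commutator_le]
  intro a ha b hb
  rw [mem_bot, commutatorElement_eq_one_iff_mul_comm]
  ext v
  refine comm_of_irred {x | ∃ d ∈ D, ∀ v, x v = d v} ?_ (f := a.toLinearMap) (g := b.toLinearMap) ?_ ?_ v
  · intro W hW
    exact hirr W fun d hd w hw => hW d.toLinearMap ⟨d, hd, fun _ => rfl⟩ w hw
  · rintro x ⟨d, hd, hx⟩ v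
    show x (a v) = a (x v)
    rw [hx, hx]
    exact LinearEquiv.congr_fun (hc d hd a ha) v
  · rintro x ⟨d, hd, hx⟩ v
    show x (b v) = b (x v)
    rw [hx, hx]
    exact LinearEquiv.congr_fun (hc d hd b hb) v

end Cfsg.Agent.H35.EP
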